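import Cfsg.Agent.BenderUnique.Odd
import Cfsg.Agent.Signalizer.MinSimple2
import Cfsg.Agent.RankOneP.Basic
import Cfsg.Agent.Hall.StructBatch2
import Cfsg.Agent.NormalEl.Basic
import Cfsg.Agent.S0519
import Cfsg.Agent.S1337
import Cfsg.Prelude.Def_OddOrderLocal

/-!
Maximal subgroups and uniqueness subgroups of a minimal simple group of odd order; rank bookkeeping.
-/

set_option autoImplicit false
set_option linter.unusedSectionVars false

namespace CfsgLib.Uniq

open CfsgLib.BenderUnique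

universe u

variable {G : Type u} [Group G] [Finite G]

/-! ### Maximal subgroups -/

theorem exists_coatom_ge {X : Subgroup G} (hX : X ≠ ⊤) : ∃ M, IsCoatom M ∧ X ≤ M :=
  (eq_top_or_exists_le_coatom X).resolve_left hX

theorem not_comm (hG : Cfsg.IsMinSimpleOddOrder G) : ¬ IsMulCommutative G := hG.2.2.1

theorem isSolvable_of_ne_top (hG : Cfsg.IsMinSimpleOddOrder G) {H : Subgroup G} (hH : H ≠ ⊤) :
    Group.IsSolvable H := hG.2.2.2 H hH

theorem odd_card (hG : Cfsg.IsMinSimpleOddOrder G) (H : Subgroup G) : Odd (Nat.card H) :=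
  hG.1.of_dvd_nat (Subgroup.card_subgroup_dvd_card H)

theorem ne_two (hG : Cfsg.IsMinSimpleOddOrder G) {p : ℕ} (hp : p ∣ Nat.card G) : p ≠ 2 := fun e =>
  Nat.not_even_iff_odd.2 hG.1 (even_iff_two_dvd.2 (e ▸ hp))

theorem zpowers_ne_top (hG : Cfsg.IsMinSimpleOddOrder G) (x : G) : Subgroup.zpowers x ≠ ⊤ := by
  intro h
  refine not_comm hG ⟨⟨fun a b => ?_⟩⟩
  obtain ⟨i, rfl⟩ := Subgroup.mem_zpowers_iff.1 (h ▸ Subgroup.mem_top a)
  obtain ⟨j, rfl⟩ := Subgroup.mem_zpowers_iff.1 (h ▸ Subgroup.mem_top b)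
  rw [← zpow_add, ← zpow_add, add_comm]

theorem coatom_ne_bot (hG : Cfsg.IsMinSimpleOddOrder G) {M : Subgroup G} (hM : IsCoatom M) : M ≠ ⊥ := by
  rintro rfl
  refine not_comm hG ⟨⟨fun a b => ?_⟩⟩
  by_cases ha : a = 1
  · rw [ha, one_mul, mul_one]
  exact absurd (hM.2 _ (bot_lt_iff_ne_bot.2 (mt Subgroup.zpowers_eq_bot.1 ha))) (zpowers_ne_top hG a)

theorem normalizer_ne_top (hG : Cfsg.IsMinSimpleOddOrder G) {X : Subgroup G} (h1 : X ≠ ⊥) (h2 : X ≠ ⊤) :
    Subgroup.normalizer (X : Set G) ≠ ⊤ := Signalizer.normalizer_ne_top hG.2.1 h1 h2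

theorem centralizer_singleton_ne_top (hG : Cfsg.IsMinSimpleOddOrder G) {x : G} (hx : x ≠ 1) :
    Subgroup.centralizer ({x} : Set G) ≠ ⊤ :=
  Signalizer.centralizer_singleton_ne_top hG.2.1 (not_comm hG) hx

theorem pgroup_ne_top (hG : Cfsg.IsMinSimpleOddOrder G) {p : ℕ} [Fact p.Prime] {X : Subgroup G}
    (hX : IsPGroup p X) : X ≠ ⊤ := by
  rintro rfl
  have hG' : IsPGroup p G := hX.of_equiv Subgroup.topEquiv
  haveI : Nontrivial G := hG.2.1.toNontrivial
  have hz := hG'.center_nontrivial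
  rcases hG.2.1.eq_bot_or_eq_top_of_normal (Subgroup.center G) inferInstance with h | h
  · exact (Subgroup.nontrivial_iff_ne_bot _).1 hz h
  · exact not_comm hG ⟨⟨fun a b => (Subgroup.mem_center_iff.1 (h ▸ Subgroup.mem_top b) a)⟩⟩

theorem eq_of_coatom_le {M L : Subgroup G} (hM : IsCoatom M) (hL : IsCoatom L) (h : L ≤ M) : L = M :=
  ((hL.le_iff.1 h).resolve_left hM.1).symm

theorem le_of_mem_centralizer {X Y : Subgroup G} (h : Y ≤ Subgroup.centralizer (X : Set G)) :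
    X ≤ Subgroup.centralizer (Y : Set G) := Subgroup.le_centralizer_iff.1 h

theorem le_centralizer_singleton {X : Subgroup G} {x : G} (hx : x ∈ Subgroup.centralizer (X : Set G)) :
    X ≤ Subgroup.centralizer ({x} : Set G) := fun y hy =>
  Subgroup.mem_centralizer_singleton_iff.2 (Subgroup.mem_centralizer_iff.1 hx y hy)

/-! ### Uniqueness subgroups -/

section unique

variable {X Y M : Subgroup G}

theorem eq_of_unique (hU : Cfsg.InUniqueMaximal X) (hM : IsCoatom M) (hXM : X ≤ M) {L : Subgroup G}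
    (hL : IsCoatom L) (hXL : X ≤ L) : L = M := hU.unique ⟨hL, hXL⟩ ⟨hM, hXM⟩

theorem le_of_unique (hU : Cfsg.InUniqueMaximal X) (hM : IsCoatom M) (hXM : X ≤ M) (hY : Y ≠ ⊤)
    (hXY : X ≤ Y) : Y ≤ M := by
  obtain ⟨L, hL, hle⟩ := exists_coatom_ge hY
  exact eq_of_unique hU hM hXM hL (hXY.trans hle) ▸ hle

theorem unique_mono (hU : Cfsg.InUniqueMaximal X) (hXY : X ≤ Y) (hY : Y ≠ ⊤) : Cfsg.InUniqueMaximal Y := by
  obtain ⟨M, ⟨hM, hXM⟩, -⟩ := id hU
  exact ⟨M, ⟨hM, le_of_unique hU hM hXM hY hXY⟩,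
    fun L hL => eq_of_unique hU hM hXM hL.1 (hXY.trans hL.2)⟩

theorem ne_top_of_unique (hU : Cfsg.InUniqueMaximal X) : X ≠ ⊤ := by
  rintro rfl
  obtain ⟨M, ⟨hM, hle⟩, -⟩ := hU
  exact hM.1 (top_unique hle)

theorem ne_bot_of_unique (hG : Cfsg.IsMinSimpleOddOrder G) (hU : Cfsg.InUniqueMaximal X) : X ≠ ⊥ := by
  rintro rfl
  obtain ⟨M, ⟨hM, -⟩, huniq⟩ := id hU
  refine hM.1 (top_unique fun x _ => ?_)
  obtain ⟨L, hL, hle⟩ := exists_coatom_ge (zpowers_ne_top hG x)
  exact huniq L ⟨hL, bot_le⟩ ▸ hle (Subgroup.mem_zpowers x)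

theorem normalizer_le_of_unique (hG : Cfsg.IsMinSimpleOddOrder G) (hU : Cfsg.InUniqueMaximal X)
    (hM : IsCoatom M) (hXM : X ≤ M) : Subgroup.normalizer (X : Set G) ≤ M :=
  le_of_unique hU hM hXM (normalizer_ne_top hG (ne_bot_of_unique hG hU) (ne_top_of_unique hU))
    Subgroup.le_normalizer

theorem centralizer_le_of_unique (hG : Cfsg.IsMinSimpleOddOrder G) (hU : Cfsg.InUniqueMaximal X)
    (hM : IsCoatom M) (hXM : X ≤ M) : Subgroup.centralizer (X : Set G) ≤ M :=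
  (Subgroup.centralizer_le_normalizer _).trans (normalizer_le_of_unique hG hU hM hXM)

theorem centralizer_singleton_le_of_unique (hG : Cfsg.IsMinSimpleOddOrder G) (hU : Cfsg.InUniqueMaximal X)
    (hM : IsCoatom M) (hXM : X ≤ M) {x : G} (hx : x ≠ 1) (hc : x ∈ Subgroup.centralizer (X : Set G)) :
    Subgroup.centralizer ({x} : Set G) ≤ M :=
  le_of_unique hU hM hXM (centralizer_singleton_ne_top hG hx) (le_centralizer_singleton hc)

theorem isCoatom_map (φ : G ≃* G) {L : Subgroup G} (hL : IsCoatom L) : IsCoatom (L.map φ.toMonoidHom) := by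
  have := (OrderIso.isCoatom_iff φ.mapSubgroup L).2 hL
  exact this

theorem unique_conj (hU : Cfsg.InUniqueMaximal X) (g : G) :
    Cfsg.InUniqueMaximal (X.map (MulAut.conj g).toMonoidHom) := by
  obtain ⟨M, ⟨hM, hXM⟩, -⟩ := id hU
  refine ⟨M.map (MulAut.conj g).toMonoidHom, ⟨isCoatom_map _ hM, Subgroup.map_mono hXM⟩, fun L hL => ?_⟩
  have h1 : L.map (MulAut.conj g).symm.toMonoidHom = M := by
    refine eq_of_unique hU hM hXM (isCoatom_map _ hL.1) fun x hx => ?_
    exact ⟨_, hL.2 ⟨x, hx, rfl⟩, (MulAut.conj g).symm_apply_apply x⟩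
  rw [← h1, Subgroup.map_map]
  conv_lhs => rw [← Subgroup.map_id L]
  congr 1
  ext x
  simp

end unique

/-! ### Rank bookkeeping -/

section rank

variable {p : ℕ} [hp : Fact p.Prime]

theorem isPGroup_of_elementary {E : Subgroup G} (hE : Cfsg.IsElementaryAbelian p E) : IsPGroup p E :=
  fun x => ⟨1, Subtype.ext (by simpa using hE.2 x x.2)⟩

theorem elementary_of_le {E E' : Subgroup G} (hE : Cfsg.IsElementaryAbelian p E) (h : E' ≤ E) :
    Cfsg.IsElementaryAbelian p E' :=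
  haveI := hE.1
  ⟨⟨⟨fun x y => Subtype.ext (setLike_mul_comm (h x.2) (h y.2))⟩⟩, fun a ha => hE.2 a (h ha)⟩

theorem elementary_le_centralizer {E : Subgroup G} (hE : Cfsg.IsElementaryAbelian p E) :
    E ≤ Subgroup.centralizer (E : Set G) := fun x hx =>
  Subgroup.mem_centralizer_iff.2 fun y hy => NormalEl.commute_of_elementary hE hy hx

theorem exists_elem_of_not_prank {k : ℕ} {K : Subgroup G} (h : ¬ Cfsg.PRankLE p k ↥K) :
    ∃ E : Subgroup G, E ≤ K ∧ Cfsg.IsElementaryAbelian p E ∧ Nat.card E = p ^ (k + 1) := by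
  simp only [Cfsg.PRankLE, not_forall, not_le] at h
  obtain ⟨A, hA, hAe, hlt⟩ := h
  have hAp : IsPGroup p (A.map K.subtype) := by
    rintro ⟨_, a, ha, rfl⟩
    exact ⟨1, Subtype.ext (by rw [pow_one]; simpa using congrArg Subtype.val (hAe a ha))⟩
  have hel : Cfsg.IsElementaryAbelian p (A.map K.subtype) := by
    refine ⟨inferInstance, ?_⟩
    rintro _ ⟨a, ha, rfl⟩
    rw [← map_pow, hAe a ha, map_one]
  obtain ⟨n, hn⟩ := hAp.exists_card_eq
  have hcard : p ^ k < p ^ n := by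
    rwa [← hn, Subgroup.card_map_of_injective K.subtype_injective]
  rw [Nat.pow_lt_pow_iff_right hp.out.one_lt] at hcard
  obtain ⟨E, hE⟩ := Sylow.exists_subgroup_card_pow_prime (G := A.map K.subtype) p
    (n := k + 1) (by rw [hn]; exact pow_dvd_pow p hcard)
  exact ⟨E.map (A.map K.subtype).subtype, (Subgroup.map_subtype_le _).trans (Subgroup.map_subtype_le _),
    elementary_of_le hel (Subgroup.map_subtype_le _),
    by rw [Subgroup.card_map_of_injective (Subgroup.subtype_injective _), hE]⟩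

theorem not_prank_of_elem {k : ℕ} {K E : Subgroup G} (hEK : E ≤ K) (hE : Cfsg.IsElementaryAbelian p E)
    (hlt : p ^ k < Nat.card E) : ¬ Cfsg.PRankLE p k ↥K := by
  intro h
  refine absurd (h (E.subgroupOf K) ?_ ?_) (not_le.2 ?_)
  · exact ⟨⟨fun x y => Subtype.ext (Subtype.ext (NormalEl.commute_of_elementary hE
      (Subgroup.mem_subgroupOf.1 x.2) (Subgroup.mem_subgroupOf.1 y.2)))⟩⟩
  · exact fun a ha => Subtype.ext (by simpa using hE.2 _ (Subgroup.mem_subgroupOf.1 ha))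
  · rwa [Nat.card_congr (Subgroup.subgroupOfEquivOfLe hEK).toEquiv]

theorem prankLE_mono {k : ℕ} {K K' : Subgroup G} (h : K ≤ K') (hr : Cfsg.PRankLE p k ↥K') :
    Cfsg.PRankLE p k ↥K := by
  by_contra hn
  obtain ⟨E, hE, hel, hc⟩ := exists_elem_of_not_prank hn
  exact not_prank_of_elem (hE.trans h) hel (hc ▸ Nat.pow_lt_pow_right hp.out.one_lt (Nat.lt_succ_self k)) hr

theorem pow_lt_card {E : Subgroup G} {k : ℕ} (h : Nat.card E = p ^ (k + 1)) : p ^ k < Nat.card E :=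
  h ▸ Nat.pow_lt_pow_right hp.out.one_lt (Nat.lt_succ_self k)

theorem not_isCyclic_of_elementary {E : Subgroup G} (hE : Cfsg.IsElementaryAbelian p E)
    (hc : p < Nat.card E) : ¬ IsCyclic E := by
  intro h
  obtain ⟨g, hg⟩ := h.exists_ofOrder_eq_natCard
  have h1 : orderOf g ∣ p := orderOf_dvd_of_pow_eq_one (Subtype.ext (by simpa using hE.2 g g.2))
  exact absurd (Nat.le_of_dvd hp.out.pos (hg ▸ h1)) (not_le.2 hc)

theorem dvd_card_of_elementary {E : Subgroup G} {k : ℕ} (hc : Nat.card E = p ^ (k + 1)) : p ∣ Nat.card G :=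
  ((dvd_pow_self p k.succ_ne_zero).trans hc.symm.dvd).trans (Subgroup.card_subgroup_dvd_card _)

/-- A noncyclic `p`-group, `p` odd, has rank at least two. -/
theorem not_prank_one_of_noncyclic {P : Type*} [Group P] [Finite P] (hp2 : p ≠ 2) (hP : IsPGroup p P)
    (hc : ¬ IsCyclic P) : ¬ Cfsg.PRankLE p 1 P := by
  intro h
  haveI : Nontrivial P := by
    by_contra hn
    rw [not_nontrivial_iff_subsingleton] at hn
    exact hc inferInstance
  obtain ⟨z, hz, hzo⟩ : ∃ z ∈ Subgroup.center P, orderOf z = p := by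
    have := hP.center_nontrivial
    obtain ⟨n, hn⟩ := (hP.to_subgroup (Subgroup.center P)).exists_card_eq
    have hn0 : n ≠ 0 := by
      rintro rfl
      exact absurd (Finite.one_lt_card (α := Subgroup.center P)) (by rw [hn]; simp)
    obtain ⟨z, hz⟩ := exists_prime_orderOf_dvd_card' (G := Subgroup.center P) p (hn ▸ dvd_pow_self p hn0)
    exact ⟨z, z.2, by rw [Subgroup.orderOf_coe]; exact hz⟩
  have helz : ∀ w : P, w ^ p = 1 → Cfsg.IsElementaryAbelian p (Subgroup.zpowers w) := fun w hw =>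
    ⟨inferInstance, fun a ha => by
      obtain ⟨m, rfl⟩ := Subgroup.mem_zpowers_iff.1 ha
      rw [← zpow_natCast, ← zpow_mul, mul_comm, zpow_mul, zpow_natCast, hw, one_zpow]⟩
  have hz1 : z ^ p = 1 := hzo ▸ pow_orderOf_eq_one z
  have key : ∀ y : P, y ^ p = 1 → y ∈ Subgroup.zpowers z := by
    intro y hy
    have hel := NormalEl.elementary_sup (helz z hz1) (helz y hy) fun a ha b hb => by
      obtain ⟨m, rfl⟩ := Subgroup.mem_zpowers_iff.1 ha
      exact (Subgroup.mem_center_iff.1 (Subgroup.zpow_mem _ hz m) b).symm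
    have hle := h _ hel.1 hel.2
    rw [pow_one] at hle
    have := Subgroup.eq_of_le_of_card_ge (le_sup_left : Subgroup.zpowers z ≤ _)
      (hle.trans (by rw [Nat.card_zpowers, hzo]))
    rw [this]
    exact (le_sup_right : Subgroup.zpowers y ≤ _) (Subgroup.mem_zpowers y)
  have hu : RankOneP.UniqueOrderP p P := by
    intro x y hx hy hx1
    have hxo : orderOf x = p := orderOf_eq_prime hx hx1
    have := Subgroup.eq_of_le_of_card_ge (Subgroup.zpowers_le.2 (key x hx))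
      (by rw [Nat.card_zpowers, Nat.card_zpowers, hxo, hzo])
    rw [this]
    exact key y hy
  rcases RankOneP.isCyclic_or_quaternion hP hu with hcyc | ⟨h2, -⟩
  · exact hc hcyc
  · exact hp2 h2

theorem exists_elem_sq (hp2 : p ≠ 2) {B : Subgroup G} (hB : IsPGroup p B) (hc : ¬ IsCyclic B) :
    ∃ E : Subgroup G, E ≤ B ∧ Cfsg.IsElementaryAbelian p E ∧ Nat.card E = p ^ 2 :=
  exists_elem_of_not_prank (not_prank_one_of_noncyclic hp2 hB hc)

/-- A `p`-group of rank at least two has a normal elementary abelian subgroup of order `p ^ 2`. -/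
theorem exists_normal_elem_sq {P : Type*} [Group P] [Finite P] (hp2 : p ≠ 2) (hP : IsPGroup p P)
    (h : ¬ Cfsg.PRankLE p 1 P) :
    ∃ E : Subgroup P, E.Normal ∧ Cfsg.IsElementaryAbelian p E ∧ Nat.card E = p ^ 2 := by
  simp only [Cfsg.PRankLE, not_forall, not_le, pow_one] at h
  obtain ⟨A, hA, hAe, hlt⟩ := h
  have hAc : ¬ IsCyclic A := not_isCyclic_of_elementary ⟨hA, hAe⟩ hlt
  obtain ⟨B, hBn, hBc, hBnc⟩ : ∃ B : Subgroup P, B.Normal ∧ IsMulCommutative B ∧ ¬ IsCyclic B := by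
    by_contra hne
    exact hp2 (Cfsg.Agent.S0519.result p hP (fun B h1 h2 => by
      by_contra h3; exact hne ⟨B, h1, h2, h3⟩) ⟨A, hA, hAc⟩).1
  haveI := hBn
  haveI := hBc
  let W : Subgroup P :=
    { carrier := {x | x ∈ B ∧ x ^ p = 1}
      one_mem' := ⟨B.one_mem, one_pow p⟩
      mul_mem' := fun {a b} ha hb => ⟨B.mul_mem ha.1 hb.1, by
        rw [Commute.mul_pow (setLike_mul_comm ha.1 hb.1), ha.2, hb.2, one_mul]⟩
      inv_mem' := fun {a} ha => ⟨B.inv_mem ha.1, by rw [inv_pow, ha.2, inv_one]⟩ }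
  have hWn : W.Normal := ⟨fun x hx g => ⟨hBn.conj_mem x hx.1 g, by rw [conj_pow, hx.2, mul_one, mul_inv_cancel]⟩⟩
  have hWel : Cfsg.IsElementaryAbelian p W :=
    ⟨⟨⟨fun x y => Subtype.ext (setLike_mul_comm x.2.1 y.2.1)⟩⟩, fun a ha => ha.2⟩
  obtain ⟨E, hEB, hEel, hEc⟩ := exists_elem_sq hp2 (hP.to_subgroup B) hBnc
  have hEW : E ≤ W := fun x hx => ⟨hEB hx, hEel.2 x hx⟩
  obtain ⟨U, hUn, hUW, hUc⟩ := Cfsg.Agent.S1337.exists_normal_sq hP W (hEc ▸ Subgroup.card_le_of_le hEW)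
  exact ⟨U, hUn, elementary_of_le hWel hUW, hUc⟩

end rank

end CfsgLib.Uniq
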